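import Cfsg.Agent.H749.PF.Model
import Cfsg.Agent.H478.CC.Count
import Cfsg.Agent.H769.OZ.Levi

/-!
# S4884, block F-B: the flags for the models of type `B_n` / `C_n` (helper749)

`flags_model` : for every model `M : Model Fr K` with a set of singular vectors (`Sing Fr`) such that isotropic vectors
are singular: `Flags (TI H) M.I.subtype M.φ n (fun K j => PJ .. (JB K j))`, `TI H U := ∀ u ∈ U, ∀ v ∈ U, H.h u v = 0`.
-/

set_option autoImplicit false

namespace Cfsg.Agent.H749.PF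

open Cfsg.Agent.TitsThree Cfsg.Agent.TitsThree.Siegel Cfsg.Agent.TitsThree.SiegelGen
  Cfsg.Agent.TitsThree.WittFrame Cfsg.Agent.TitsThree.WittWeyl Cfsg.Agent.TitsThree.WBridge
  Cfsg.Agent.TitsThree.FrameCN
open Cfsg.Agent.Nodes Cfsg.Agent.Nodes.TypeC Cfsg.Agent.Nodes.WittRoot Cfsg.Agent.Nodes.WittRGD Cfsg.Agent.Nodes.WittAll
open Cfsg.Agent.Nodes.BNOf Cfsg.Agent.Nodes.Bruhat Cfsg.Agent.Nodes.LeviDec Cfsg.Agent.ChevalleyStructure.CoxeterGeom Cfsg.Agent.Tits.Roots
open Cfsg.Agent.H769.OZ Cfsg.Agent.H439.CC Cfsg.Agent.H478.CC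

variable {F : Type*} [Field F] {V : Type*} [AddCommGroup V] [Module F V] {H : HForm F V} {n : ℕ}
  {Fr : Frame H (Fin n)}

/-- totally isotropic subspaces -/
def TI (H : HForm F V) (U : Submodule F V) : Prop := ∀ u ∈ U, ∀ v ∈ U, H.h u v = 0

theorem EE_eq_E (k : Fin n) : EE Fr ((k : ℕ) + 1) = E Fr k true := by
  rw [EE, E]
  congr 1
  ext v
  constructor
  · rintro ⟨l, hl, rfl⟩
    exact ⟨l, Fin.le_def.2 (Nat.lt_succ_iff.1 hl), rfl⟩
  · rintro ⟨l, hl, rfl⟩
    exact ⟨l, Nat.lt_succ_iff.2 (Fin.le_def.1 hl), rfl⟩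

theorem mem_StE_iff_map {D : Submodule F V} {g : V ≃ₗ[F] V} : g ∈ StE D ↔ D.map (g : V →ₗ[F] V) = D := by
  rw [mem_StE]
  constructor
  · intro h
    ext v
    constructor
    · rintro ⟨w, hw, rfl⟩
      exact (h w).2 hw
    · intro hv
      refine ⟨g.symm v, (h _).1 ?_, ?_⟩
      · rwa [LinearEquiv.apply_symm_apply]
      · exact g.apply_symm_apply v
  · intro h v
    constructor
    · intro hv
      rw [← h] at hv
      obtain ⟨w, hw, e⟩ := hv
      have : w = v := g.injective e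
      exact this ▸ hw
    · intro hv
      rw [← h]
      exact ⟨v, hv, rfl⟩

section model

variable {K : Type*} [Group K] (M : Model Fr K)

theorem model_surjective (hn : 0 < n) : Function.Surjective M.φ := by
  rw [← MonoidHom.range_eq_top]
  exact M.gen ⟨0, hn⟩ M.φ.range (fun i j _ t => ⟨⟨_, rfl⟩, ⟨_, rfl⟩⟩) fun p => ⟨⟨_, rfl⟩, ⟨_, rfl⟩⟩

/-- the image of the stabiliser of the standard flag of type `D` -/
def StF (D : Finset ℕ) : Subgroup K :=
  ((⨅ k : {k : Fin n // (k : ℕ) + 1 ∈ D}, StE (E Fr k.1 true)).subgroupOf M.I).map M.φ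

theorem phi_mem_StF {D : Finset ℕ} {g : M.I} :
    M.φ g ∈ StF M D ↔ ∀ k : Fin n, (k : ℕ) + 1 ∈ D → g.1 ∈ StE (E Fr k true) := by
  constructor
  · rintro ⟨g', hg', e⟩ k hk
    have h1 : M.φ g' ∈ StK M (E Fr k true) := by
      refine (phi_mem_StK M).2 ?_
      have h2 := Subgroup.mem_subgroupOf.1 hg'
      exact (Subgroup.mem_iInf.1 h2) ⟨k, hk⟩
    rw [e] at h1
    exact (phi_mem_StK M).1 h1
  · intro h
    refine Subgroup.mem_map_of_mem _ (Subgroup.mem_subgroupOf.2 ?_)
    exact Subgroup.mem_iInf.2 fun k => h k.1 k.2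

variable {p : ℕ} (hA : AmbT Fr p M.I) {p0 : Fr.Adm} (hp0 : p0.c ≠ 0) [Finite V] [Fact p.Prime] [CharP F p]
  {W : Type*} [Group W] (cs : CoxeterSystem (CoxeterMatrix.B n) W)

omit [Finite V] in
theorem GG_eq_top (hn : 0 < n) : GG cs (isCartan n) (WittModel.T M) (WittModel.X M) = ⊤ := by
  rw [eq_top_iff, ← WittModel.G1_eq_top M hn cs]
  exact le_sup_right

include hA hp0 in
/-- **the stabiliser of the standard flag is the parabolic subgroup** -/
theorem StF_eq_PJ (hn : 0 < n) (D : Finset ℕ) (j : Unit) :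
    StF M D = PJ cs (isCartan n) (WittModel.T M) (WittModel.X M) (JB D j) := by
  have : Finite W := finite_W cs
  have R := rgdC_model M hA hp0 cs
  have hB : RGD.B cs (isCartan n) (WittModel.T M) (WittModel.X M) ≤ StF M D := by
    intro y hy
    obtain ⟨g, rfl⟩ := model_surjective M hn y
    rw [phi_mem_StF]
    intro k _
    exact (phi_mem_StK M).1 (B_le_StK M cs (k := k) hy)
  have h1 := inf_eq_PJ R hB
  rw [GG_eq_top M cs hn, inf_top_eq] at h1
  rw [h1]
  congr 1
  ext i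
  rw [Set.mem_ofPred_eq, phi_mem_StF]
  change (∀ k : Fin n, (k : ℕ) + 1 ∈ D → nn Fr p0 i ∈ StE (E Fr k true)) ↔ (i : ℕ) + 1 ∉ D
  constructor
  · intro h hi
    exact (nn_StE_iff (Fr := Fr) hp0 i).1 (h i hi) rfl
  · intro hi k hk
    refine (nn_StE_iff (Fr := Fr) hp0 i).2 ?_
    rintro rfl
    exact hi hk

include hA hp0 in
/-- **the flags (S4884, F-B).** -/
theorem flags_model (hn : 0 < n) (Sg : Sing Fr) (hS : ∀ v, H.h v v = 0 → Sg.S v) :
    Flags (TI H) M.I.subtype M.φ n
      (fun D j => PJ cs (isCartan n) (WittModel.T M) (WittModel.X M) (JB D j)) := by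
  have : Module.Finite F V := Module.Finite.of_finite
  have : Finite (V ≃ₗ[F] V) := Finite.of_injective (fun g : V ≃ₗ[F] V => (g : V → V)) DFunLike.coe_injective
  have : Finite K := Finite.of_surjective M.φ (model_surjective M hn)
  classical
  have hTS : ∀ U : Submodule F V, Sg.TS U ↔ TI H U := fun U => Sg.ts_iff hS
  have h00 : Sg.S 0 := hS 0 (H.zero_left 0)
  refine flags_of_orbits ?_ ?_ ?_ (model_surjective M hn) (ker_le_center M) _
    (fun D _ => D.image fun k => EE Fr k) ?_ ?_ ?_ ?_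
  · intro u hu v _
    rw [(Submodule.mem_bot F).1 hu]
    exact H.zero_left v
  · intro U U' h hU u hu v hv
    exact hU u (h hu) v (h hv)
  · rintro g U hU _ ⟨u, hu, rfl⟩ _ ⟨v, hv, rfl⟩
    exact (hA.iso _ g.2 u v).trans (hU u hu v hv)
  · intro D hD hN j
    refine ⟨?_, ?_, ?_⟩
    · intro U hU U' hU' _
      obtain ⟨k, -, rfl⟩ := Finset.mem_image.1 (Finset.mem_coe.1 hU)
      obtain ⟨k', -, rfl⟩ := Finset.mem_image.1 (Finset.mem_coe.1 hU')
      rcases le_total k k' with h | h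
      · exact Or.inl (EE_mono h)
      · exact Or.inr (EE_mono h)
    · intro U hU
      obtain ⟨k, hk, rfl⟩ := Finset.mem_image.1 hU
      have hk1 := Finset.mem_Icc.1 (hD hk)
      refine ⟨(hTS _).1 (Sg.ts_EE h00), bot_lt_iff_ne_bot.2 fun h => ?_⟩
      have h1 := finrank_EE (Fr := Fr) hk1.2
      rw [h, finrank_bot] at h1
      omega
    · rw [Finset.image_image]
      conv_rhs => rw [← Finset.image_id (s := D)]
      exact Finset.image_congr fun k hk => finrank_EE (Finset.mem_Icc.1 (hD hk)).2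
  · intro D hD hN j g
    rw [← StF_eq_PJ M hA hp0 cs hn D j, phi_mem_StF]
    constructor
    · intro h U hU
      obtain ⟨k, hk, rfl⟩ := Finset.mem_image.1 hU
      have hk1 := Finset.mem_Icc.1 (hD hk)
      have e : k = ((⟨k - 1, by omega⟩ : Fin n) : ℕ) + 1 := by simp only; omega
      have h1 := h ⟨k - 1, by omega⟩ (by rw [← e]; exact hk)
      rw [← EE_eq_E, ← e] at h1
      exact mem_StE_iff_map.1 h1
    · intro h k hk
      rw [← EE_eq_E]
      exact mem_StE_iff_map.2 (h _ (Finset.mem_image_of_mem _ hk))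
  · intro D hD hN c hc
    obtain ⟨g, hg⟩ := Sg.chain_trans_model M (c : Set (Submodule F V)) hc.1
      (fun U hU => (hTS U).2 (hc.2.1 U hU).1)
      (fun U hU => by
        have h1 : Module.finrank F U ∈ D := by
          rw [← hc.2.2]
          exact Finset.mem_image_of_mem _ hU
        exact (Finset.mem_Icc.1 (hD h1)).2) (Or.inl ⟨p0, hp0⟩)
    refine ⟨g, (), ?_⟩
    ext U
    rw [mem_im]
    constructor
    · intro hU
      refine ⟨EE Fr (Module.finrank F U), Finset.mem_image_of_mem _ ?_, hg U hU⟩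
      rw [← hc.2.2]
      exact Finset.mem_image_of_mem _ hU
    · rintro ⟨U', hU', rfl⟩
      obtain ⟨k, hk, rfl⟩ := Finset.mem_image.1 hU'
      rw [← hc.2.2] at hk
      obtain ⟨U, hU, rfl⟩ := Finset.mem_image.1 hk
      have h1 := hg U hU
      change (EE Fr (Module.finrank F U)).map (g.1 : V →ₗ[F] V) ∈ c
      rw [h1]
      exact hU
  · intro D _ _ j j' g _
    rfl

end model

end Cfsg.Agent.H749.PF
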