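import Cfsg.Agent.H749.PF.Flags
import Cfsg.Agent.Nodes.WittInst

/-!
# S4884, block F-B: the flags for `PSp`, `PSU`, `PΩ` odd and minus (helper749)
-/

set_option autoImplicit false

namespace Cfsg.Agent.H749.PF

open Cfsg Cfsg.Agent.TitsThree Cfsg.Agent.TitsThree.Siegel Cfsg.Agent.TitsThree.SiegelGen
  Cfsg.Agent.TitsThree.WittFrame Cfsg.Agent.TitsThree.WittWeyl Cfsg.Agent.TitsThree.WBridge
  Cfsg.Agent.TitsThree.FrameCN
open Cfsg.Agent.Nodes Cfsg.Agent.Nodes.TypeC Cfsg.Agent.Nodes.WittRoot Cfsg.Agent.Nodes.WittRGD Cfsg.Agent.Nodes.WittAll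
open Cfsg.Agent.Nodes.BNOf Cfsg.Agent.Nodes.Bruhat Cfsg.Agent.Nodes.LeviDec
  Cfsg.Agent.ChevalleyStructure.CoxeterGeom Cfsg.Agent.Tits.Roots
open Cfsg.Agent.H439.CC

/-- isotropic vectors are singular in characteristic `≠ 2` -/
theorem ofW_S_of {F : Type*} [Field F] {V : Type*} [AddCommGroup V] [Module F V] {H : HForm F V} {n : ℕ}
    {P : PQ H} (W : WFrame P n) (h2 : (2 : F) ≠ 0) (v : V) (hv : H.h v v = 0) : (ofW W).S v := by
  rw [ofW_S]
  obtain ⟨c, hc⟩ := P.ex v
  have h1 := P.rel hc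
  rw [hv, _root_.neg_zero] at h1
  have h3 := P.lam (-c / 2) hc
  refine P.congr h3 rfl ?_
  have e3 := H.ε_ne
  have e4 : H.σ c = -(H.ε * c) := eq_neg_of_add_eq_zero_right h1
  rw [map_div₀, map_neg, e4, map_ofNat]
  field_simp
  ring

/-- **`Flags` for `PSp_{2m}(F)`**, every characteristic -/
theorem flags_sp {F : Type*} [Field F] [Finite F] {m : ℕ} (hm : 0 < m) {p : ℕ} [Fact p.Prime] [CharP F p]
    {W : Type*} [Group W] (cs : CoxeterSystem (CoxeterMatrix.B m) W) :
    Flags (TI (SpIdent.form m F)) (KInstSp.model m F).I.subtype (KInstSp.model m F).φ m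
      (fun D j => PJ cs (isCartan m) (WittModel.T (KInstSp.model m F)) (WittModel.X (KInstSp.model m F)) (JB D j)) :=
  flags_model (KInstSp.model m F) (AmbT.of_amb WittU.amb_Sp p) (p0 := SpIdent.adm 1) one_ne_zero cs hm (sp m F)
    fun _ _ => trivial

/-- **`Flags` for `PSU_N(q)`**, odd characteristic -/
theorem flags_U {F : Type*} [Field F] [Fintype F] {q N m : ℕ} (hF : Fintype.card F = q ^ 2) (hN : 3 ≤ N)
    (W : WFrame (KSideU.PU hF N) m) (h2 : (2 : F) ≠ 0) (hm : 0 < m) {p : ℕ} [Fact p.Prime] [CharP F p]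
    {W' : Type*} [Group W'] (cs : CoxeterSystem (CoxeterMatrix.B m) W') :
    Flags (TI (KSideU.HU hF N)) (KInstU.model hF hN W).I.subtype (KInstU.model hF hN W).φ m
      (fun D j => PJ cs (isCartan m) (WittModel.T (KInstU.model hF hN W)) (WittModel.X (KInstU.model hF hN W))
        (JB D j)) := by
  obtain ⟨p0, hp0, -⟩ := WittU.exists_adm hF W
  exact flags_model (KInstU.model hF hN W) (AmbT.of_amb (WittU.amb_U hF W) p) hp0 cs hm (ofW W) (ofW_S_of W h2)

section Orthogonal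

open QuadraticMap
open Cfsg.Agent.LieClassical Cfsg.Agent.LieClassical.OrthCore Cfsg.Agent.LieClassical.OrthTrans
open Cfsg.Agent.LieClassical.OrthSimple Cfsg.Agent.LieClassical.OrthFinite
open Cfsg.Agent.LieClassical.OrthForms
open Cfsg.Agent.TitsThree.KSideO Cfsg.Agent.TitsThree.StdData

variable {ι : Type} [Fintype ι] [DecidableEq ι] {F : Type*} [Field F] {Q : QuadraticForm F (ι → F)} {m : ℕ}

/-- **`Flags` for orthogonal groups with anisotropic kernel `≠ 0`** (odd and minus type), odd characteristic -/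
theorem flags_O [Finite F] (W : WFrame (PO Q) m) (hG : Good Q) (h2 : (2 : F) ≠ 0) (hm : 0 < m)
    (hp : ∃ p : (toFrame W).Adm, p.c ≠ 0) {p : ℕ} [Fact p.Prime] [CharP F p]
    {W' : Type*} [Group W'] (cs : CoxeterSystem (CoxeterMatrix.B m) W') :
    Flags (TI (HO Q)) (KSideO.model W hG hp).I.subtype (KSideO.model W hG hp).φ m
      (fun D j => PJ cs (isCartan m) (WittModel.T (KSideO.model W hG hp)) (WittModel.X (KSideO.model W hG hp))
        (JB D j)) := by
  obtain ⟨p0, hp0⟩ := hp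
  exact flags_model (KSideO.model W hG ⟨p0, hp0⟩) (AmbT.of_amb (WittInst.amb_O_of_two W h2) p) hp0 cs hm (ofW W)
    (ofW_S_of W h2)

end Orthogonal

end Cfsg.Agent.H749.PF
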