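import Cfsg.Agent.H749.PF.Trans
import Cfsg.Agent.TitsThree.WBridge
import Cfsg.Agent.TitsThree.SpGen
import Cfsg.Agent.TitsThree.FrameCN

/-!
# Singular vectors of the standard frames; transitivity on chains of totally singular subspaces (helper749)

* `ofW W : Sing (toFrame W)` for every `WFrame W` (unitary, orthogonal, every characteristic), `S v ↔ P.ok v 0`;
* `sp m F : Sing (SpIdent.frame m F)`, `S v ↔ True`;
* `Sing.chain_trans`, `Sing.chain_trans_model`.
-/

set_option autoImplicit false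

namespace Cfsg.Agent.H749.PF

open Cfsg.Agent.TitsThree Cfsg.Agent.TitsThree.Siegel Cfsg.Agent.TitsThree.SiegelGen
  Cfsg.Agent.TitsThree.WittFrame Cfsg.Agent.TitsThree.WittWeyl Cfsg.Agent.TitsThree.WBridge
  Cfsg.Agent.TitsThree.FrameCN

variable {F : Type*} [Field F] {V : Type*} [AddCommGroup V] [Module F V] {H : HForm F V} {n : ℕ}

/-! ### Witt frames -/

section W

variable {P : PQ H} (W : WFrame P n)

theorem mem_V0_of {v : V} (hv : ∀ x, H.h v ((toFrame W).b x) = 0) : v ∈ W.V0 := by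
  obtain ⟨a, b, w, hw, e⟩ := W.span v
  have h1 : ∀ (s : Finset (Fin n)) (c : Fin n → F) (u : Fin n → V) (z : V),
      H.h (∑ i ∈ s, c i • u i) z = ∑ i ∈ s, c i * H.h (u i) z := by
    intro s c u z
    induction s using Finset.induction_on with
    | empty => simp [H.zero_left]
    | insert a s ha ih => rw [Finset.sum_insert ha, Finset.sum_insert ha, H.add_left, H.smul_left, ih]
  have ha : ∀ i, a i = 0 := by
    intro i
    have h2 := hv (i, false)
    rw [toFrame_b_false, e, H.add_left, H.add_left, h1, h1, W.V0f w hw i, add_zero,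
      Finset.sum_eq_single i, Finset.sum_eq_zero, add_zero] at h2
    · rwa [W.ef, if_pos rfl, mul_one] at h2
    · intro j _
      rw [W.ff, mul_zero]
    · intro j _ hj
      rw [W.ef, if_neg hj, mul_zero]
    · intro h
      exact absurd (Finset.mem_univ _) h
  have hb : ∀ i, b i = 0 := by
    intro i
    have h2 := hv (i, true)
    rw [toFrame_b_true, e, H.add_left, H.add_left, h1, h1, W.V0e w hw i, add_zero,
      Finset.sum_eq_zero, zero_add, Finset.sum_eq_single i] at h2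
    · rw [W.fe, if_pos rfl] at h2
      exact (mul_eq_zero.1 h2).resolve_right H.ε_ne
    · intro j _ hj
      rw [W.fe, if_neg hj, mul_zero]
    · intro h
      exact absurd (Finset.mem_univ _) h
    · intro j _
      rw [W.ee, mul_zero]
  rw [e, Finset.sum_eq_zero, Finset.sum_eq_zero, zero_add, zero_add]
  · exact hw
  · intro i _
    rw [hb i, zero_smul]
  · intro i _
    rw [ha i, zero_smul]

/-- The singular vectors of a Witt frame: `P.ok v 0`. -/
def ofW : Sing (toFrame W) where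
  S v := P.ok v 0
  smul c _ h := P.sing_smul h c
  add h h' e := P.sing_add h h' (H.orth_symm e)
  b := b_sing W
  X {x y} t v hxy hv := by
    rw [Frame.X_eq _ hxy]
    exact P.ok_sie _ _ (b_sing W x) (P.sing_smul (b_sing W y) _) hv
  Z x p v hv := P.ok_sie _ _ (b_sing W x) p.ok.2 hv
  V0 v hv := mem_V0_of W hv
  aniso w hw h := W.aniso w hw h
  ok w hw := by
    obtain ⟨c, hc⟩ := P.ex w
    exact ⟨c, hw, hc⟩
  tr x δ h := by
    have h1 := P.add (b_sing W (neg x)) (P.sing_smul (b_sing W x) δ)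
    have h2 := P.sub h h1
    refine ⟨W.V0.zero_mem, P.congr h2 rfl ?_⟩
    rw [H.smul_left, Frame.hb_self_neg]
    have e1 := (toFrame W).η_neg x
    have e2 := (toFrame W).η_ne x
    have e3 := H.ε_ne
    rw [← e1] at e3 ⊢
    have e4 := (toFrame W).η_ne (neg x)
    field_simp
    ring

@[simp] theorem ofW_S (v : V) : (ofW W).S v ↔ P.ok v 0 := Iff.rfl

end W

/-! ### The symplectic frames -/

/-- The singular vectors of the symplectic frame: all vectors. -/
def sp (m : ℕ) (F : Type*) [Field F] : Sing (SpIdent.frame m F) where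
  S _ := True
  smul _ _ _ := trivial
  add _ _ _ := trivial
  b _ := trivial
  X _ _ _ _ := trivial
  Z _ _ _ _ := trivial
  V0 v hv := by
    have h1 : v ∈ (SpGen.wframe m F).V0 := by
      refine mem_V0_of (SpGen.wframe m F) ?_
      rintro ⟨i, x⟩
      cases x
      · exact hv (i, false)
      · exact hv (i, true)
    exact h1
  aniso w hw _ := (Submodule.mem_bot F).1 hw
  ok w hw := ⟨0, (Submodule.mem_bot F).1 hw⟩
  tr _ _ _ := rfl

/-! ### Chains -/

variable {Fr : Frame H (Fin n)} (Sg : Sing Fr)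

include Sg

/-- **Transitivity on the chains of totally singular subspaces with given dimensions.** -/
theorem Sing.chain_trans [FiniteDimensional F V] (c : Set (Submodule F V)) (hc : IsChain (· ≤ ·) c)
    (hTS : ∀ U ∈ c, Sg.TS U) (hdim : ∀ U ∈ c, Module.finrank F U ≤ n)
    (hsw : (∃ p0 : Fr.Adm, p0.c ≠ 0) ∨ ∀ U ∈ c, Module.finrank F U < n) :
    ∃ g ∈ RG Fr, ∀ U ∈ c, (EE Fr (Module.finrank F U)).map (g : V →ₗ[F] V) = U := by
  classical
  have huniq : ∀ U ∈ c, ∀ U' ∈ c, Module.finrank F U ≤ Module.finrank F U' → U ≤ U' := by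
    intro U hU U' hU' h
    by_cases hUU : U = U'
    · exact hUU.le
    · rcases hc hU hU' hUU with h1 | h1
      · exact h1
      · exact (Submodule.eq_of_le_of_finrank_le h1 h).ge
  let x : ℕ → Submodule F V := fun k => if h : ∃ U ∈ c, Module.finrank F U = k then h.choose else ⊥
  have hx : ∀ U ∈ c, x (Module.finrank F U) = U := by
    intro U hU
    have h : ∃ U' ∈ c, Module.finrank F U' = Module.finrank F U := ⟨U, hU, rfl⟩
    have e : x (Module.finrank F U) = h.choose := dif_pos h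
    rw [e]
    exact le_antisymm (huniq _ h.choose_spec.1 _ hU h.choose_spec.2.le) (huniq _ hU _ h.choose_spec.1 h.choose_spec.2.ge)
  obtain ⟨g, hg, h⟩ := Sg.flag_trans {k | ∃ U ∈ c, Module.finrank F U = k} (hsw.imp id (by
      rintro h _ ⟨U, hU, rfl⟩
      exact h U hU)) (by
      rintro _ ⟨U, hU, rfl⟩
      exact hdim U hU) x (by
      rintro _ ⟨U, hU, rfl⟩
      rw [hx U hU]) (by
      rintro _ ⟨U, hU, rfl⟩ _ ⟨U', hU', rfl⟩ h
      rw [hx U hU, hx U' hU']
      exact huniq U hU U' hU' h) (by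
      rintro _ ⟨U, hU, rfl⟩
      rw [hx U hU]
      exact hTS U hU)
  refine ⟨g, hg, fun U hU => ?_⟩
  rw [h _ ⟨U, hU, rfl⟩, hx U hU]

/-- **Transitivity on chains, type `D`**: two families of maximal totally singular subspaces. -/
theorem Sing.chain_trans_D [FiniteDimensional F V] (hn : 0 < n) (hadm : ∀ w c, Fr.ok w c → w = 0 ∧ c = 0)
    (c : Set (Submodule F V)) (hc : IsChain (· ≤ ·) c)
    (hTS : ∀ U ∈ c, Sg.TS U) (hdim : ∀ U ∈ c, Module.finrank F U ≤ n) :
    ∃ g ∈ RG Fr, ∀ U ∈ c, (Module.finrank F U < n → (EE Fr (Module.finrank F U)).map (g : V →ₗ[F] V) = U) ∧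
      (Module.finrank F U = n → (EE Fr n).map (g : V →ₗ[F] V) = U ∨ (EF Fr hn).map (g : V →ₗ[F] V) = U) := by
  classical
  have huniq : ∀ U ∈ c, ∀ U' ∈ c, Module.finrank F U ≤ Module.finrank F U' → U ≤ U' := by
    intro U hU U' hU' h
    by_cases hUU : U = U'
    · exact hUU.le
    · rcases hc hU hU' hUU with h1 | h1
      · exact h1
      · exact (Submodule.eq_of_le_of_finrank_le h1 h).ge
  let x : ℕ → Submodule F V := fun k => if h : ∃ U ∈ c, Module.finrank F U = k then h.choose else ⊥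
  have hx : ∀ U ∈ c, x (Module.finrank F U) = U := by
    intro U hU
    have h : ∃ U' ∈ c, Module.finrank F U' = Module.finrank F U := ⟨U, hU, rfl⟩
    have e : x (Module.finrank F U) = h.choose := dif_pos h
    rw [e]
    exact le_antisymm (huniq _ h.choose_spec.1 _ hU h.choose_spec.2.le) (huniq _ hU _ h.choose_spec.1 h.choose_spec.2.ge)
  obtain ⟨g, hg, h1, h2⟩ := Sg.flag_trans_D hn hadm {k | ∃ U ∈ c, Module.finrank F U = k} (by
      rintro _ ⟨U, hU, rfl⟩
      exact hdim U hU) x (by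
      rintro _ ⟨U, hU, rfl⟩
      rw [hx U hU]) (by
      rintro _ ⟨U, hU, rfl⟩ _ ⟨U', hU', rfl⟩ h
      rw [hx U hU, hx U' hU']
      exact huniq U hU U' hU' h) (by
      rintro _ ⟨U, hU, rfl⟩
      rw [hx U hU]
      exact hTS U hU)
  refine ⟨g, hg, fun U hU => ⟨fun hlt => ?_, fun hen => ?_⟩⟩
  · rw [h1 _ ⟨U, hU, rfl⟩ hlt, hx U hU]
  · have h3 := h2 ⟨U, hU, hen⟩
    have h4 : x n = U := (congrArg x hen).symm.trans (hx U hU)
    rwa [h4] at h3

omit Sg in
theorem RG_le_model {K : Type*} [Group K] (M : Model Fr K) : RG Fr ≤ M.I := GJ_le M.hX M.hZ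

/-- **The same for a model.** -/
theorem Sing.chain_trans_model [FiniteDimensional F V] {K : Type*} [Group K] (M : Model Fr K)
    (c : Set (Submodule F V)) (hc : IsChain (· ≤ ·) c)
    (hTS : ∀ U ∈ c, Sg.TS U) (hdim : ∀ U ∈ c, Module.finrank F U ≤ n)
    (hsw : (∃ p0 : Fr.Adm, p0.c ≠ 0) ∨ ∀ U ∈ c, Module.finrank F U < n) :
    ∃ g : M.I, ∀ U ∈ c, (EE Fr (Module.finrank F U)).map (g.1 : V →ₗ[F] V) = U := by
  obtain ⟨g, hg, h⟩ := Sg.chain_trans c hc hTS hdim hsw
  exact ⟨⟨g, RG_le_model M hg⟩, h⟩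

omit Sg in
/-- in type `D` the group is generated by the `X a b t` -/
theorem RG_le_of_X (hadm : ∀ w c, Fr.ok w c → w = 0 ∧ c = 0) {K : Subgroup (V ≃ₗ[F] V)}
    (hX : ∀ a b t, Fr.X a b t ∈ K) : RG Fr ≤ K := by
  refine GJ_le hX fun a p => ?_
  obtain ⟨h1, h2⟩ := hadm _ _ p.ok
  have h3 : p = 1 := Frame.Adm.ext h1 h2
  rw [h3, Fr.Z_one]
  exact one_mem K

/-! ### Totally singular = totally isotropic -/

omit Sg in
/-- if `h v v = 0 → S v`, then totally singular = totally isotropic -/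
theorem Sing.ts_iff (Sg : Sing Fr) (h : ∀ v, H.h v v = 0 → Sg.S v) {U : Submodule F V} :
    Sg.TS U ↔ ∀ v ∈ U, ∀ w ∈ U, H.h v w = 0 :=
  ⟨fun hU => hU.2, fun hU => ⟨fun v hv => h v (hU v hv v hv), hU⟩⟩

omit Sg in
theorem sp_ts_iff {m : ℕ} {F : Type*} [Field F] {U : Submodule F (Fin m ⊕ Fin m → F)} :
    (sp m F).TS U ↔ ∀ v ∈ U, ∀ w ∈ U, (SpIdent.form m F).h v w = 0 :=
  (sp m F).ts_iff fun _ _ => trivial

omit Sg in
/-- in characteristic `≠ 2` -/
theorem ofW_ts_iff {P : PQ H} (W : WFrame P n) (h2 : (2 : F) ≠ 0) {U : Submodule F V} :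
    (ofW W).TS U ↔ ∀ v ∈ U, ∀ w ∈ U, H.h v w = 0 := by
  refine (ofW W).ts_iff fun v hv => ?_
  rw [ofW_S]
  obtain ⟨c, hc⟩ := P.ex v
  have h1 := P.rel hc
  rw [hv, _root_.neg_zero] at h1
  have h3 := P.lam (-c / 2) hc
  refine P.congr h3 rfl ?_
  have e3 := H.ε_ne
  have e4 : H.σ c = -(H.ε * c) := eq_neg_of_add_eq_zero_right h1
  rw [map_div₀, map_neg, e4, map_ofNat]
  field_simp
  ring

end Cfsg.Agent.H749.PF
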