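import Mathlib
import Cfsg.Agent.TitsThree.WittWeyl

/-!
# Transitivity of the group generated by the root elements of a Witt frame on totally singular flags (helper749)

`Sing Fr` : a set of singular vectors for a Witt frame (any characteristic; symplectic, unitary, orthogonal, also
quadratic forms in characteristic two).
`GJ Fr j` : the group generated by the root elements with indices `≥ j`; `RG Fr = GJ Fr 0`.
`EE Fr i` : the span of the `b (l, true)`, `l < i`.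

`exists_line` : every singular `v ≠ 0` orthogonal to the `b a`, `a.1 < j` is, up to a scalar, the image of
`b (j, true)` under an element of `GJ Fr j`.
`flag_trans` : the group `RG Fr` is transitive on the totally singular flags of type `K`, for every `K ⊆ {0, .., n}`
(`n ∉ K` if there is no admissible pair with `c ≠ 0`, i. e. for `O⁺`).
-/

set_option autoImplicit false

namespace Cfsg.Agent.H749.PF

open Cfsg.Agent.TitsThree.Siegel Cfsg.Agent.TitsThree.WittFrame Cfsg.Agent.TitsThree.WittWeyl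

variable {F : Type*} [Field F] {V : Type*} [AddCommGroup V] [Module F V] {H : HForm F V} {n : ℕ}

/-- Singular vectors for a Witt frame. -/
structure Sing (Fr : Frame H (Fin n)) where
  S : V → Prop
  smul : ∀ (c : F) {v}, S v → S (c • v)
  add : ∀ {v w}, S v → S w → H.h v w = 0 → S (v + w)
  b : ∀ x, S (Fr.b x)
  X : ∀ {x y} (t : F) {v}, x.1 ≠ y.1 → S v → S (Fr.X x y t v)
  Z : ∀ x p {v}, S v → S (Fr.Z x p v)
  V0 : ∀ v, (∀ x, H.h v (Fr.b x) = 0) → v ∈ Fr.V0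
  aniso : ∀ w ∈ Fr.V0, S w → w = 0
  ok : ∀ w ∈ Fr.V0, ∃ c, Fr.ok w c
  tr : ∀ x (δ : F), S (Fr.b (neg x) + δ • Fr.b x) → Fr.ok 0 (δ * (Fr.η x)⁻¹)

variable (Fr : Frame H (Fin n))

/-- the group generated by the root elements with indices `≥ j` -/
def GJ (j : ℕ) : Subgroup (V ≃ₗ[F] V) :=
  Subgroup.closure ({g | ∃ (a b : Fin n × Bool) (t : F), j ≤ (a.1 : ℕ) ∧ j ≤ (b.1 : ℕ) ∧ a.1 ≠ b.1 ∧ g = Fr.X a b t} ∪
    {g | ∃ (a : Fin n × Bool) (p : Fr.Adm), j ≤ (a.1 : ℕ) ∧ g = Fr.Z a p})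

/-- the group generated by the root elements -/
abbrev RG : Subgroup (V ≃ₗ[F] V) := GJ Fr 0

/-- the span of the `b (l, true)`, `l < i` -/
def EE (i : ℕ) : Submodule F V := Submodule.span F {v | ∃ l : Fin n, (l : ℕ) < i ∧ v = Fr.b (l, true)}

variable {Fr} (Sg : Sing Fr)

theorem X_mem {j : ℕ} {a b : Fin n × Bool} (ha : j ≤ (a.1 : ℕ)) (hb : j ≤ (b.1 : ℕ)) (hab : a.1 ≠ b.1) (t : F) :
    Fr.X a b t ∈ GJ Fr j := Subgroup.subset_closure (Or.inl ⟨a, b, t, ha, hb, hab, rfl⟩)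

theorem Z_mem {j : ℕ} {a : Fin n × Bool} (ha : j ≤ (a.1 : ℕ)) (p : Fr.Adm) :
    Fr.Z a p ∈ GJ Fr j := Subgroup.subset_closure (Or.inr ⟨a, p, ha, rfl⟩)

theorem nZ_mem {j : ℕ} {a : Fin n × Bool} (ha : j ≤ (a.1 : ℕ)) (p : Fr.Adm) : nZ Fr a p ∈ GJ Fr j := by
  rw [nZ]
  exact mul_mem (mul_mem (Z_mem ha _) (Z_mem (a := neg a) ha _)) (Z_mem ha _)

theorem nX_mem {j : ℕ} {a b : Fin n × Bool} (ha : j ≤ (a.1 : ℕ)) (hb : j ≤ (b.1 : ℕ)) (hab : a.1 ≠ b.1) (t : F) :
    nX Fr a b t ∈ GJ Fr j := by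
  rw [nX]
  exact mul_mem (mul_mem (X_mem ha hb hab _) (X_mem (a := neg b) (b := neg a) hb ha hab.symm _)) (X_mem ha hb hab _)

theorem GJ_anti {i j : ℕ} (h : i ≤ j) : GJ Fr j ≤ GJ Fr i := by
  refine Subgroup.closure_mono ?_
  rintro g (⟨a, b, t, ha, hb, hab, rfl⟩ | ⟨a, p, ha, rfl⟩)
  · exact Or.inl ⟨a, b, t, h.trans ha, h.trans hb, hab, rfl⟩
  · exact Or.inr ⟨a, p, h.trans ha, rfl⟩

theorem GJ_le {j : ℕ} {K : Subgroup (V ≃ₗ[F] V)} (hX : ∀ a b t, Fr.X a b t ∈ K) (hZ : ∀ a p, Fr.Z a p ∈ K) :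
    GJ Fr j ≤ K := by
  refine (Subgroup.closure_le K).2 ?_
  rintro g (⟨a, b, t, ha, hb, hab, rfl⟩ | ⟨a, p, ha, rfl⟩)
  · exact hX _ _ _
  · exact hZ _ _

theorem iso_of_mem {j : ℕ} {g : V ≃ₗ[F] V} (hg : g ∈ GJ Fr j) : H.IsIso g := by
  refine Subgroup.closure_induction (p := fun g _ => H.IsIso g) ?_ ?_ ?_ ?_ hg
  · rintro g (⟨a, b, t, ha, hb, hab, rfl⟩ | ⟨a, p, ha, rfl⟩)
    · exact Fr.isIso_X _ _ _
    · exact Fr.isIso_Z _ _
  · intro v w; rfl
  · intro a b _ _ ha hb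
    exact HForm.IsIso.mul H ha hb
  · intro a _ ha
    exact HForm.IsIso.inv H ha

theorem b_of_mem {j : ℕ} {g : V ≃ₗ[F] V} (hg : g ∈ GJ Fr j) {c : Fin n × Bool} (hc : (c.1 : ℕ) < j) :
    g (Fr.b c) = Fr.b c := by
  refine Subgroup.closure_induction (p := fun g _ => g (Fr.b c) = Fr.b c) ?_ ?_ ?_ ?_ hg
  · rintro g (⟨a, b, t, ha, hb, hab, rfl⟩ | ⟨a, p, ha, rfl⟩)
    · refine X_apply_of_ne Fr hab ?_ ?_ t
      · intro h
        have := congrArg (fun z => ((Prod.fst z : Fin n) : ℕ)) h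
        simp only [neg_fst] at this
        omega
      · intro h
        have := congrArg (fun z => ((Prod.fst z : Fin n) : ℕ)) h
        simp only [neg_fst] at this
        omega
    · refine Z_apply_of_ne Fr ?_ p
      intro h
      have := congrArg (fun z => ((Prod.fst z : Fin n) : ℕ)) h
      simp only [neg_fst] at this
      omega
  · rfl
  · intro a b _ _ ha hb
    change a (b (Fr.b c)) = _
    rw [hb, ha]
  · intro a _ ha
    have : a⁻¹ (a (Fr.b c)) = Fr.b c := a.symm_apply_apply _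
    rwa [ha] at this

theorem EE_of_mem {j : ℕ} {g : V ≃ₗ[F] V} (hg : g ∈ GJ Fr j) {i : ℕ} (hi : i ≤ j) {v : V} (hv : v ∈ EE Fr i) :
    g v = v := by
  refine Submodule.span_induction (p := fun v _ => g v = v) ?_ ?_ ?_ ?_ hv
  · rintro _ ⟨l, hl, rfl⟩
    exact b_of_mem hg (by simp only; omega)
  · exact map_zero g
  · intro x y _ _ hx hy
    rw [map_add, hx, hy]
  · intro c x _ hx
    rw [map_smul, hx]

include Sg

theorem Sing.iff_of_mem {j : ℕ} {g : V ≃ₗ[F] V} (hg : g ∈ GJ Fr j) (v : V) : Sg.S (g v) ↔ Sg.S v := by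
  have key : ∀ g : V ≃ₗ[F] V, g ∈ GJ Fr j → ∀ v, Sg.S v → Sg.S (g v) := by
    intro g hg
    have key' : (∀ v, Sg.S v → Sg.S (g v)) ∧ (∀ v, Sg.S v → Sg.S (g⁻¹ v)) := by
      refine Subgroup.closure_induction
        (p := fun g _ => (∀ v, Sg.S v → Sg.S (g v)) ∧ (∀ v, Sg.S v → Sg.S (g⁻¹ v))) ?_ ?_ ?_ ?_ hg
      · rintro g (⟨a, b, t, ha, hb, hab, rfl⟩ | ⟨a, p, ha, rfl⟩)
        · refine ⟨fun v => Sg.X t hab, fun v => ?_⟩
          rw [← Fr.X_neg]
          exact Sg.X _ hab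
        · refine ⟨fun v => Sg.Z a p, fun v => ?_⟩
          rw [← Fr.Z_inv]
          exact Sg.Z _ _
      · refine ⟨fun v hv => hv, fun v hv => ?_⟩
        rw [inv_one]; exact hv
      · rintro a b _ _ ⟨ha, ha'⟩ ⟨hb, hb'⟩
        refine ⟨fun v hv => ha _ (hb _ hv), fun v hv => ?_⟩
        rw [mul_inv_rev]
        exact hb' _ (ha' _ hv)
      · rintro a _ ⟨ha, ha'⟩
        refine ⟨ha', ?_⟩
        rw [inv_inv]; exact ha
    exact key'.1
  refine ⟨fun h => ?_, key g hg v⟩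
  have h1 := key g⁻¹ (inv_mem hg) _ h
  have h2 : g⁻¹ (g v) = v := g.symm_apply_apply v
  rwa [h2] at h1

omit Sg

/-! ### Siegel elements -/

/-- the coordinates -/
def kap (v : V) (a : Fin n × Bool) : F := H.h v (Fr.b (neg a)) * (Fr.η (neg a))⁻¹

theorem h_sum_left (s : Finset (Fin n × Bool)) (c : Fin n × Bool → F) (u : Fin n × Bool → V) (w : V) :
    H.h (∑ a ∈ s, c a • u a) w = ∑ a ∈ s, c a * H.h (u a) w := by
  induction s using Finset.induction_on with
  | empty => simp [H.zero_left]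
  | insert a s ha ih => rw [Finset.sum_insert ha, Finset.sum_insert ha, H.add_left, H.smul_left, ih]

theorem h_kap (v : V) (c : Fin n × Bool) : H.h (∑ a, kap (Fr := Fr) v a • Fr.b a) (Fr.b c) = H.h v (Fr.b c) := by
  rw [h_sum_left, Finset.sum_eq_single (neg c)]
  · rw [Fr.hb_neg_self, kap, neg_neg, mul_assoc, inv_mul_cancel₀ (Fr.η_ne _), mul_one]
  · intro a _ ha
    rw [Fr.hb_ne, mul_zero]
    intro h
    apply ha
    rw [h, neg_neg]
  · intro h
    exact absurd (Finset.mem_univ _) h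

/-- the set of `w` such that some Siegel element `S(b x, w, c)` is in the group -/
def Ns (Fr : Frame H (Fin n)) (j : ℕ) (x : Fin n × Bool) (w : V) : Prop :=
  ∃ (c : F) (hw : H.h (Fr.b x) w = 0), H.sie (Fr.b x) w c (Fr.hb_self x) hw ∈ GJ Fr j

theorem Ns.add {j : ℕ} {x : Fin n × Bool} {w w' : V} (h : Ns Fr j x w) (h' : Ns Fr j x w') : Ns Fr j x (w + w') := by
  obtain ⟨c, hw, hm⟩ := h
  obtain ⟨c', hw', hm'⟩ := h'
  have h1 := mul_mem hm hm'
  rw [H.sie_mul] at h1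
  exact ⟨_, _, h1⟩

theorem Ns.zero {j : ℕ} {x : Fin n × Bool} : Ns Fr j x 0 :=
  ⟨0, H.zero_right _, by rw [H.sie_zero]; exact one_mem _⟩

theorem Ns.b {j : ℕ} {x a : Fin n × Bool} (hx : j ≤ (x.1 : ℕ)) (ha : j ≤ (a.1 : ℕ)) (hxa : x.1 ≠ a.1) (s : F) :
    Ns Fr j x (s • Fr.b a) := by
  have h3 := Fr.η_ne a
  have h5 := H.ε_ne
  have e : Fr.sc a (-(H.σ (H.ε * (Fr.η a)⁻¹ * s))) = s := by
    rw [Frame.sc, map_neg, H.σσ]
    field_simp
  have h1 := X_mem (Fr := Fr) hx ha hxa (-(H.σ (H.ε * (Fr.η a)⁻¹ * s)))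
  rw [Fr.X_eq hxa] at h1
  refine ⟨0, Fr.h_smul_b hxa s, ?_⟩
  rw [H.sie_congr _ _ (Fr.hb_self x) (Fr.h_smul_b hxa (Fr.sc a (-(H.σ (H.ε * (Fr.η a)⁻¹ * s))))) rfl
    (by rw [e]) rfl]
  exact h1

include Sg

theorem Sing.Ns_V0 {j : ℕ} {x : Fin n × Bool} (hx : j ≤ (x.1 : ℕ)) {w : V} (hw : w ∈ Fr.V0) : Ns Fr j x w := by
  obtain ⟨c, hc⟩ := Sg.ok w hw
  exact ⟨c, Fr.h0 x w hw, Z_mem hx ⟨w, c, hc⟩⟩

theorem Sing.Ns_of {j : ℕ} {x : Fin n × Bool} (hx : j ≤ (x.1 : ℕ)) {w : V}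
    (hw : ∀ a, (a.1 : ℕ) < j ∨ a.1 = x.1 → H.h w (Fr.b a) = 0) : Ns Fr j x w := by
  have h1 : w - ∑ a, kap (Fr := Fr) w a • Fr.b a ∈ Fr.V0 := by
    apply Sg.V0
    intro c
    rw [H.sub_left, h_kap, sub_self]
  have h2 : Ns Fr j x (∑ a, kap (Fr := Fr) w a • Fr.b a) := by
    refine Finset.sum_induction _ (Ns Fr j x) (fun _ _ => Ns.add) Ns.zero ?_
    intro a _
    by_cases ha : (a.1 : ℕ) < j ∨ a.1 = x.1
    · rw [kap, hw (neg a) ha, zero_mul, zero_smul]
      exact Ns.zero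
    · push Not at ha
      exact Ns.b hx ha.1 (Ne.symm ha.2) _
  have h3 := (Sg.Ns_V0 hx h1).add h2
  rwa [sub_add_cancel] at h3

/-- the opposite case -/
theorem Sing.exists_opp {j : ℕ} {x : Fin n × Bool} (hx : j ≤ (x.1 : ℕ)) {v : V} (hS : Sg.S v)
    (hv : ∀ a, (a.1 : ℕ) < j → H.h v (Fr.b a) = 0) (hne : H.h v (Fr.b x) ≠ 0) :
    ∃ g ∈ GJ Fr j, ∃ c : F, c ≠ 0 ∧ g (Fr.b (neg x)) = c • v := by
  have hη := Fr.η_ne x
  have hη' := Fr.η_ne (neg x)
  obtain ⟨β, hβ⟩ : ∃ β, β = H.h v (Fr.b x) := ⟨_, rfl⟩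
  rw [← hβ] at hne
  obtain ⟨v', hv'⟩ : ∃ v', v' = (Fr.η x * β⁻¹) • v := ⟨_, rfl⟩
  have e1 : H.h v' (Fr.b x) = Fr.η x := by
    rw [hv', H.smul_left, ← hβ]
    field_simp
  obtain ⟨u, hu⟩ : ∃ u, u = (Fr.η x)⁻¹ • (v' - Fr.b (neg x)) := ⟨_, rfl⟩
  obtain ⟨μ, hμ⟩ : ∃ μ, μ = H.h u (Fr.b (neg x)) * (Fr.η (neg x))⁻¹ := ⟨_, rfl⟩
  have hw : Ns Fr j x (u - μ • Fr.b x) := by
    refine Sg.Ns_of hx ?_
    rintro a (ha | ha)
    · have h1 : x.1 ≠ a.1 := by
        intro h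
        rw [h] at hx
        omega
      rw [H.sub_left, hu, H.smul_left, H.sub_left, hv', H.smul_left, hv a ha, H.smul_left, Fr.hb_of_ne h1,
        Fr.hb_of_ne (x := neg x) h1]
      simp
    · by_cases hax : a = x
      · subst hax
        rw [H.sub_left, hu, H.smul_left, H.sub_left, e1, Fr.hb_neg_self, H.smul_left, Fr.hb_self]
        simp
      · have hax' : a = neg x := by
          refine Prod.ext ha ?_
          rw [neg_snd]
          have : a.2 ≠ x.2 := fun h => hax (Prod.ext ha h)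
          cases h1 : a.2 <;> cases h2 : x.2 <;> simp_all
        subst hax'
        rw [H.sub_left, H.smul_left, Fr.hb_self_neg, hμ, mul_assoc, inv_mul_cancel₀ hη', mul_one, sub_self]
  obtain ⟨c, hw0, hm⟩ := hw
  obtain ⟨g, hg⟩ : ∃ g, g = H.sie (Fr.b x) (u - μ • Fr.b x) c (Fr.hb_self x) hw0 := ⟨_, rfl⟩
  rw [← hg] at hm
  have hgx : g (Fr.b x) = Fr.b x := by
    rw [hg, HForm.sie_apply, Fr.hb_self, hw0]
    simp
  obtain ⟨δ, hδ⟩ : ∃ δ : F, g (Fr.b (neg x)) = v' + δ • Fr.b x := by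
    have e2 : v' = Fr.b (neg x) + Fr.η x • u := by
      rw [hu, smul_smul, mul_inv_cancel₀ hη, one_smul]; abel
    rw [hg, HForm.sie_apply, Fr.hb_neg_self, e2]
    refine ⟨-(Fr.η x * μ) - H.ε⁻¹ * H.h (Fr.b (neg x)) (u - μ • Fr.b x) + c * Fr.η x, ?_⟩
    module
  have h1 : g (Fr.b (neg x) + (-δ) • Fr.b x) = v' := by
    rw [map_add, map_smul, hδ, hgx]
    module
  have h2 : Sg.S (Fr.b (neg x) + (-δ) • Fr.b x) := by
    rw [← Sg.iff_of_mem hm, h1, hv']
    exact Sg.smul _ hS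
  have h3 := Sg.tr x _ h2
  refine ⟨g * Fr.Z x ⟨0, _, h3⟩, mul_mem hm (Z_mem hx _), Fr.η x * β⁻¹,
    mul_ne_zero hη (inv_ne_zero hne), ?_⟩
  rw [mul_apply', Z_apply_neg]
  simp only
  rw [smul_zero, add_zero, mul_assoc, inv_mul_cancel₀ hη, mul_one, h1, hv']

omit Sg in
theorem exists_swap (j : Fin n) (hsw : (∃ p0 : Fr.Adm, p0.c ≠ 0) ∨ (j : ℕ) + 1 < n) :
    ∃ g ∈ GJ Fr j, ∃ c : F, c ≠ 0 ∧ g (Fr.b (j, true)) = c • Fr.b (neg (j, true)) := by
  rcases hsw with ⟨p0, hp0⟩ | hj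
  · have hm : nZ Fr (j, true) p0 ∈ GJ Fr (j : ℕ) := nZ_mem (a := (j, true)) le_rfl p0
    refine ⟨nZ Fr (j, true) p0, hm, _, ?_, nZ_apply_self Fr (j, true) p0 hp0⟩
    · have hσ : H.σ p0.c ≠ 0 := by simpa using hp0
      exact mul_ne_zero (mul_ne_zero H.ε_ne (inv_ne_zero (Fr.η_ne _))) (inv_ne_zero hσ)
  · set x : Fin n × Bool := (j, true) with hx
    set y : Fin n × Bool := (⟨(j : ℕ) + 1, hj⟩, true) with hy
    have hxy : x.1 ≠ y.1 := by
      intro h
      have := congrArg (fun i : Fin n => (i : ℕ)) h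
      simp [hx, hy] at this
    have hyx : (neg y).1 ≠ x.1 := hxy.symm
    have hx' : (j : ℕ) ≤ (x.1 : ℕ) := le_rfl
    have hy' : (j : ℕ) ≤ (y.1 : ℕ) := by simp [hy]
    refine ⟨nX Fr (neg y) x 1 * nX Fr x y 1, mul_mem ?_ ?_, 1, one_ne_zero, ?_⟩
    · exact nX_mem (a := neg y) hy' hx' hyx 1
    · exact nX_mem hx' hy' hxy 1
    · rw [mul_apply', nX_apply_self Fr hxy one_ne_zero, map_neg, map_smul, nX_apply_self Fr hyx one_ne_zero]
      simp

/-- **Transitivity on singular lines.** -/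
theorem Sing.exists_line (j : Fin n) (hsw : (∃ p0 : Fr.Adm, p0.c ≠ 0) ∨ (j : ℕ) + 1 < n) {v : V} (hv0 : v ≠ 0)
    (hS : Sg.S v) (hv : ∀ a, (a.1 : ℕ) < (j : ℕ) → H.h v (Fr.b a) = 0) :
    ∃ g ∈ GJ Fr j, ∃ c : F, c ≠ 0 ∧ g (Fr.b (j, true)) = c • v := by
  obtain ⟨s, hs, c', hc', hsx⟩ := exists_swap (Fr := Fr) j hsw
  set x : Fin n × Bool := (j, true) with hx
  have hxj : (j : ℕ) ≤ (x.1 : ℕ) := le_rfl
  by_cases h1 : H.h v (Fr.b x) = 0
  · by_cases h2 : ∃ a : Fin n × Bool, j < a.1 ∧ H.h v (Fr.b a) ≠ 0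
    · obtain ⟨a, ha, hva⟩ := h2
      have hax : a.1 ≠ x.1 := (ne_of_gt ha)
      have haj : (j : ℕ) ≤ (a.1 : ℕ) := le_of_lt ha
      -- `k = X a (neg x) 1 : b x ↦ b x + b a`
      set k := Fr.X a (neg x) 1 with hk
      have hkm : k ∈ GJ Fr j := X_mem (b := neg x) haj hxj hax _
      have hkx : k (Fr.b x) = Fr.b x + (1 : F) • Fr.b a := by
        have := X_apply_neg Fr (x := a) (y := neg x) hax 1
        rwa [neg_neg] at this
      have h3 : H.h (k⁻¹ v) (Fr.b x) ≠ 0 := by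
        have h4 := iso_of_mem hkm (k⁻¹ v) (Fr.b x)
        have h5 : k (k⁻¹ v) = v := k.apply_symm_apply v
        rw [h5, hkx, one_smul, H.add_right, h1, zero_add] at h4
        rwa [← h4]
      have h6 : ∀ b, (b.1 : ℕ) < (j : ℕ) → H.h (k⁻¹ v) (Fr.b b) = 0 := by
        intro b hb
        have h4 := iso_of_mem hkm (k⁻¹ v) (Fr.b b)
        have h5 : k (k⁻¹ v) = v := k.apply_symm_apply v
        rw [h5, b_of_mem hkm hb, hv b hb] at h4
        exact h4.symm
      obtain ⟨g, hg, c, hc, hgx⟩ := Sg.exists_opp hxj ((Sg.iff_of_mem (inv_mem hkm) v).2 hS) h6 h3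
      refine ⟨k * g * s, mul_mem (mul_mem hkm hg) hs, c' * c, mul_ne_zero hc' hc, ?_⟩
      rw [mul_apply', mul_apply', hsx, map_smul, hgx, map_smul, map_smul, smul_smul]
      have h5 : k (k⁻¹ v) = v := k.apply_symm_apply v
      rw [h5]
    · push Not at h2
      -- `v = α b x`
      have h3 : v - (kap (Fr := Fr) v x) • Fr.b x ∈ Fr.V0 := by
        apply Sg.V0
        intro a
        rw [H.sub_left, H.smul_left]
        rcases lt_trichotomy a.1 x.1 with h | h | h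
        · rw [hv a h, Fr.hb_of_ne (ne_of_gt h)]; simp
        · by_cases hax : a = x
          · rw [hax, h1, Fr.hb_self]; simp
          · have hax' : a = neg x := by
              refine Prod.ext h ?_
              rw [neg_snd]
              have : a.2 ≠ x.2 := fun h' => hax (Prod.ext h h')
              cases h1 : a.2 <;> cases h2 : x.2 <;> simp_all
            rw [hax', Fr.hb_self_neg, kap, mul_assoc, inv_mul_cancel₀ (Fr.η_ne _), mul_one, sub_self]
        · rw [h2 a h, Fr.hb_of_ne (ne_of_lt h)]; simp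
      have h4 : Sg.S (v - (kap (Fr := Fr) v x) • Fr.b x) := by
        rw [sub_eq_add_neg, ← neg_smul]
        refine Sg.add hS (Sg.smul _ (Sg.b x)) ?_
        rw [H.smul_right, h1, mul_zero]
      have h5 := Sg.aniso _ h3 h4
      have h6 : v = (kap (Fr := Fr) v x) • Fr.b x := sub_eq_zero.1 h5
      have h7 : kap (Fr := Fr) v x ≠ 0 := by
        intro h
        rw [h, zero_smul] at h6
        exact hv0 h6
      refine ⟨1, one_mem _, (kap (Fr := Fr) v x)⁻¹, inv_ne_zero h7, ?_⟩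
      change Fr.b x = _
      have h8 := congrArg (fun z => (kap (Fr := Fr) v x)⁻¹ • z) h6
      simp only [smul_smul] at h8
      rw [h8, inv_mul_cancel₀ h7, one_smul]
  · obtain ⟨g, hg, c, hc, hgx⟩ := Sg.exists_opp hxj hS hv h1
    refine ⟨g * s, mul_mem hg hs, c' * c, mul_ne_zero hc' hc, ?_⟩
    rw [mul_apply', hsx, map_smul, hgx, smul_smul]

/-! ### Flags -/

omit Sg

theorem EE_zero : EE Fr 0 = ⊥ := by
  rw [EE, Submodule.span_eq_bot]
  rintro _ ⟨l, hl, -⟩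
  omega

theorem b_mem_EE {i : ℕ} {l : Fin n} (hl : (l : ℕ) < i) : Fr.b (l, true) ∈ EE Fr i :=
  Submodule.subset_span ⟨l, hl, rfl⟩

theorem EE_mono {i j : ℕ} (h : i ≤ j) : EE Fr i ≤ EE Fr j := by
  refine Submodule.span_le.2 ?_
  rintro _ ⟨l, hl, rfl⟩
  exact b_mem_EE (lt_of_lt_of_le hl h)

theorem EE_succ {i : ℕ} (hi : i < n) : EE Fr (i + 1) = EE Fr i ⊔ Submodule.span F {Fr.b (⟨i, hi⟩, true)} := by
  apply le_antisymm
  · refine Submodule.span_le.2 ?_
    rintro _ ⟨l, hl, rfl⟩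
    rcases Nat.lt_or_ge (l : ℕ) i with h | h
    · exact Submodule.mem_sup_left (b_mem_EE h)
    · have e : l = ⟨i, hi⟩ := Fin.ext (by simp only; omega)
      rw [e]
      exact Submodule.mem_sup_right (Submodule.subset_span rfl)
  · refine sup_le (EE_mono (Nat.le_succ i)) ?_
    refine Submodule.span_le.2 ?_
    rintro _ rfl
    exact b_mem_EE (Nat.lt_succ_self i)

theorem linInd : LinearIndependent F fun l : Fin n => Fr.b (l, true) := by
  rw [Fintype.linearIndependent_iff]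
  intro c hc i
  have h1 : H.h (∑ l : Fin n, c l • Fr.b (l, true)) (Fr.b (i, false)) = c i := by
    have h2 : ∀ s : Finset (Fin n), H.h (∑ l ∈ s, c l • Fr.b (l, true)) (Fr.b (i, false)) =
        ∑ l ∈ s, c l * H.h (Fr.b (l, true)) (Fr.b (i, false)) := by
      intro s
      induction s using Finset.induction_on with
      | empty => simp [H.zero_left]
      | insert a s ha ih => rw [Finset.sum_insert ha, Finset.sum_insert ha, H.add_left, H.smul_left, ih]
    rw [h2, Finset.sum_eq_single i]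
    · rw [Fr.hb]; simp
    · intro l _ hl
      rw [Fr.hb_of_ne (x := (l, true)) (y := (i, false)) hl, mul_zero]
    · intro h
      exact absurd (Finset.mem_univ _) h
  rw [hc, H.zero_left] at h1
  exact h1.symm

theorem finrank_EE {i : ℕ} (hi : i ≤ n) : Module.finrank F (EE Fr i) = i := by
  have h1 : LinearIndependent F fun l : Fin i => Fr.b (Fin.castLE hi l, true) :=
    (linInd (Fr := Fr)).comp (Fin.castLE hi) (Fin.castLE_injective hi)
  have h2 : EE Fr i = Submodule.span F (Set.range fun l : Fin i => Fr.b (Fin.castLE hi l, true)) := by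
    rw [EE]
    congr 1
    ext v
    constructor
    · rintro ⟨l, hl, rfl⟩
      exact ⟨⟨l, hl⟩, rfl⟩
    · rintro ⟨l, rfl⟩
      exact ⟨Fin.castLE hi l, l.2, rfl⟩
  rw [h2, finrank_span_eq_card h1, Fintype.card_fin]

instance (i : ℕ) : Module.Finite F (EE Fr i) := by
  have : EE Fr i = Submodule.span F ((fun l : Fin n => Fr.b (l, true)) '' {l | (l : ℕ) < i}) := by
    rw [EE]
    congr 1
    ext v
    constructor
    · rintro ⟨l, hl, rfl⟩
      exact ⟨l, hl, rfl⟩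
    · rintro ⟨l, hl, rfl⟩
      exact ⟨l, hl, rfl⟩
  rw [this]
  exact Module.Finite.span_of_finite F (Set.toFinite _)

/-- the annihilator property -/
theorem h_EE {i : ℕ} {v : V} (hv : ∀ l : Fin n, (l : ℕ) < i → H.h v (Fr.b (l, true)) = 0) {w : V} (hw : w ∈ EE Fr i) :
    H.h v w = 0 := by
  refine Submodule.span_induction (p := fun w _ => H.h v w = 0) ?_ ?_ ?_ ?_ hw
  · rintro _ ⟨l, hl, rfl⟩
    exact hv l hl
  · exact H.zero_right _
  · intro x y _ _ hx hy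
    rw [H.add_right, hx, hy, add_zero]
  · intro c x _ hx
    rw [H.smul_right, hx, mul_zero]

/-- a totally singular subspace -/
def Sing.TS (Sg : Sing Fr) (U : Submodule F V) : Prop := (∀ v ∈ U, Sg.S v) ∧ ∀ v ∈ U, ∀ w ∈ U, H.h v w = 0

include Sg

theorem Sing.S_zero : Sg.S 0 ∨ n = 0 := by
  rcases Nat.eq_zero_or_pos n with h | h
  · exact Or.inr h
  · left
    have := Sg.smul 0 (Sg.b (⟨0, h⟩, true))
    rwa [zero_smul] at this

theorem Sing.ts_map {g : V ≃ₗ[F] V} {j : ℕ} (hg : g ∈ GJ Fr j) {U : Submodule F V} (hU : Sg.TS U) :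
    Sg.TS (U.map (g : V →ₗ[F] V)) := by
  constructor
  · rintro _ ⟨v, hv, rfl⟩
    exact (Sg.iff_of_mem hg v).2 (hU.1 v hv)
  · rintro _ ⟨v, hv, rfl⟩ _ ⟨w, hw, rfl⟩
    exact (iso_of_mem hg v w).trans (hU.2 v hv w hw)

theorem Sing.ts_EE {i : ℕ} (h0 : Sg.S 0) : Sg.TS (EE Fr i) := by
  have h2 : ∀ v ∈ EE Fr i, ∀ w ∈ EE Fr i, H.h v w = 0 := by
    intro v hv w hw
    refine h_EE ?_ hw
    intro l _
    refine H.orth_symm (h_EE ?_ hv)
    intro l' _
    refine Fr.hb_ne ?_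
    intro h
    have := congrArg Prod.snd h
    simp [neg] at this
  refine ⟨fun v hv => ?_, h2⟩
  refine Submodule.span_induction (p := fun v hv => Sg.S v) ?_ h0 ?_ ?_ hv
  · rintro _ ⟨l, hl, rfl⟩
    exact Sg.b _
  · intro x y hx hy hx' hy'
    exact Sg.add hx' hy' (h2 x hx y hy)
  · intro c x _ hx
    exact Sg.smul c hx

/-- the projection -/
theorem Sing.exists_proj {i : ℕ} (hi : i < n) {v : V}
    (hvi : v ∉ EE Fr i) (hS : Sg.S v) (hv : ∀ w ∈ EE Fr i, H.h v w = 0) :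
    ∃ u ∈ EE Fr i, v + u ≠ 0 ∧ Sg.S (v + u) ∧ ∀ a : Fin n × Bool, (a.1 : ℕ) < i → H.h (v + u) (Fr.b a) = 0 := by
  -- the projection to `E_i`
  obtain ⟨u, hu⟩ : ∃ u, u = -∑ l : {l : Fin n // (l : ℕ) < i}, kap (Fr := Fr) v (l.1, true) • Fr.b (l.1, true) :=
    ⟨_, rfl⟩
  have huE : u ∈ EE Fr i := by
    rw [hu]
    refine neg_mem (Submodule.sum_mem _ fun l _ => Submodule.smul_mem _ _ (b_mem_EE l.2))
  have hS' : Sg.S (v + u) := by
    have h0 : Sg.S 0 := (Sg.S_zero).resolve_right (by omega)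
    exact Sg.add hS ((Sg.ts_EE h0).1 u huE) (hv u huE)
  have hne : v + u ≠ 0 := by
    intro h
    apply hvi
    rw [eq_neg_of_add_eq_zero_left h]
    exact neg_mem huE
  have horth : ∀ a : Fin n × Bool, (a.1 : ℕ) < i → H.h (v + u) (Fr.b a) = 0 := by
    rintro ⟨l, s⟩ hl
    simp only at hl
    cases s with
    | true =>
      rw [H.add_left, hv _ (b_mem_EE hl)]
      have h0 : Sg.S 0 := (Sg.S_zero).resolve_right (by omega)
      rw [(Sg.ts_EE h0).2 u huE _ (b_mem_EE hl), add_zero]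
    | false =>
      have h2 : ∀ s : Finset {l : Fin n // (l : ℕ) < i},
          H.h (∑ l ∈ s, kap (Fr := Fr) v (l.1, true) • Fr.b (l.1, true)) (Fr.b (l, false)) =
            ∑ l' ∈ s, kap (Fr := Fr) v (l'.1, true) * H.h (Fr.b (l'.1, true)) (Fr.b (l, false)) := by
        intro s
        induction s using Finset.induction_on with
        | empty => simp [H.zero_left]
        | insert a s ha ih => rw [Finset.sum_insert ha, Finset.sum_insert ha, H.add_left, H.smul_left, ih]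
      rw [H.add_left, hu, H.neg_left, h2, Finset.sum_eq_single ⟨l, hl⟩]
      · have e : ((l, false) : Fin n × Bool) = neg (l, true) := rfl
        simp only
        rw [e, Fr.hb_self_neg, kap, mul_assoc, inv_mul_cancel₀ (Fr.η_ne _), mul_one, add_neg_cancel]
      · intro l' _ hl'
        rw [Fr.hb_of_ne, mul_zero]
        intro h
        exact hl' (Subtype.ext h)
      · intro h
        exact absurd (Finset.mem_univ _) h
  exact ⟨u, huE, hne, hS', horth⟩

/-- one step: a singular vector orthogonal to `E_i` and not in `E_i` can be moved into `E_{i+1}` -/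
theorem Sing.exists_step {i : ℕ} (hi : i < n) (hsw : (∃ p0 : Fr.Adm, p0.c ≠ 0) ∨ i + 1 < n) {v : V}
    (hvi : v ∉ EE Fr i) (hS : Sg.S v) (hv : ∀ w ∈ EE Fr i, H.h v w = 0) :
    ∃ g ∈ GJ Fr i, ∃ u ∈ EE Fr i, ∃ c : F, c ≠ 0 ∧ g (Fr.b (⟨i, hi⟩, true)) = c • (v + u) := by
  obtain ⟨u, huE, hne, hS', horth⟩ := Sg.exists_proj hi hvi hS hv
  obtain ⟨g, hg, c, hc, h⟩ := Sg.exists_line ⟨i, hi⟩ hsw hne hS' horth
  exact ⟨g, hg, u, huE, c, hc, h⟩

omit Sg in
theorem finrank_map_EE {i : ℕ} (hi : i ≤ n) (g : V ≃ₗ[F] V) :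
    Module.finrank F ((EE Fr i).map (g : V →ₗ[F] V)) = i := by
  rw [LinearEquiv.finrank_map_eq g, finrank_EE hi]

/-- the steps of the induction along the flag -/
theorem Sing.flag_key [FiniteDimensional F V] (K : Set ℕ)
    (hK : ∀ k ∈ K, k ≤ n) (x : ℕ → Submodule F V) (hdim : ∀ k ∈ K, Module.finrank F (x k) = k)
    (hmono : ∀ k ∈ K, ∀ l ∈ K, k ≤ l → x k ≤ x l) (hTS : ∀ k ∈ K, Sg.TS (x k)) (i : ℕ)
    (hsw : ∀ l < i, (∃ p0 : Fr.Adm, p0.c ≠ 0) ∨ (∀ k ∈ K, k ≤ l) ∨ l + 1 < n) :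
    ∃ g ∈ RG Fr, ∀ k ∈ K, (k ≤ i → (EE Fr k).map (g : V →ₗ[F] V) = x k) ∧
      (i ≤ k → (EE Fr i).map (g : V →ₗ[F] V) ≤ x k) := by
    induction i with
    | zero =>
      refine ⟨1, one_mem _, fun k hk => ⟨fun h => ?_, fun _ => ?_⟩⟩
      · have hk0 : k = 0 := Nat.le_zero.1 h
        have h1 := hdim k hk
        subst hk0
        rw [EE_zero, Submodule.map_bot, Submodule.finrank_eq_zero.1 h1]
      · rw [EE_zero, Submodule.map_bot]
        exact bot_le
    | succ i ih =>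
      obtain ⟨g, hg, hk⟩ := ih fun l hl => hsw l (Nat.lt_succ_of_lt hl)
      by_cases hex : ∃ k, k ∈ K ∧ i + 1 ≤ k
      · classical
        obtain ⟨k₀, ⟨hk₀, hik₀⟩, hmin⟩ : ∃ k₀, (k₀ ∈ K ∧ i + 1 ≤ k₀) ∧ ∀ k, k ∈ K ∧ i + 1 ≤ k → k₀ ≤ k :=
          ⟨Nat.find hex, Nat.find_spec hex, fun k hk => Nat.find_min' hex hk⟩
        have hin : i < n := lt_of_lt_of_le hik₀ (hK k₀ hk₀)
        have hsw' : (∃ p0 : Fr.Adm, p0.c ≠ 0) ∨ i + 1 < n := by
          rcases hsw i (Nat.lt_succ_self i) with h | h | h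
          · exact Or.inl h
          · exact absurd (h k₀ hk₀) (not_le.2 hik₀)
          · exact Or.inr h
        have hle := (hk k₀ hk₀).2 (Nat.le_of_succ_le hik₀)
        obtain ⟨v, hv, hv'⟩ : ∃ v ∈ x k₀, v ∉ (EE Fr i).map (g : V →ₗ[F] V) := by
          by_contra hcon
          push Not at hcon
          have h1 : x k₀ ≤ (EE Fr i).map (g : V →ₗ[F] V) := hcon
          have h2 := Submodule.finrank_mono h1
          rw [hdim k₀ hk₀, finrank_map_EE hin.le] at h2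
          omega
        have hgv : g (g⁻¹ v) = v := g.apply_symm_apply v
        have h1 : g⁻¹ v ∉ EE Fr i := by
          intro h
          exact hv' ⟨_, h, hgv⟩
        have h2 : Sg.S (g⁻¹ v) := (Sg.iff_of_mem (inv_mem hg) v).2 ((hTS k₀ hk₀).1 v hv)
        have h3 : ∀ w ∈ EE Fr i, H.h (g⁻¹ v) w = 0 := by
          intro w hw
          rw [← iso_of_mem hg (g⁻¹ v) w, hgv]
          exact (hTS k₀ hk₀).2 v hv _ (hle ⟨w, hw, rfl⟩)
        obtain ⟨u, hu, e, he, c, hc, hub⟩ := Sg.exists_step hin hsw' h1 h2 h3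
        have hmap : ∀ k ≤ i, (EE Fr k).map ((g * u : V ≃ₗ[F] V) : V →ₗ[F] V) = (EE Fr k).map (g : V →ₗ[F] V) := by
          intro k hki
          apply le_antisymm
          · rintro _ ⟨w, hw, rfl⟩
            refine ⟨w, hw, ?_⟩
            change g w = g (u w)
            rw [EE_of_mem hu hki hw]
          · rintro _ ⟨w, hw, rfl⟩
            refine ⟨w, hw, ?_⟩
            change g (u w) = g w
            rw [EE_of_mem hu hki hw]
        have hle' : (EE Fr (i + 1)).map ((g * u : V ≃ₗ[F] V) : V →ₗ[F] V) ≤ x k₀ := by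
          rw [EE_succ hin, Submodule.map_sup, hmap i le_rfl]
          refine sup_le hle ?_
          rw [Submodule.map_span, Submodule.span_le]
          rintro _ ⟨_, rfl, rfl⟩
          change g (u (Fr.b (⟨i, hin⟩, true))) ∈ x k₀
          rw [hub, map_smul, map_add, hgv]
          exact Submodule.smul_mem _ _ (Submodule.add_mem _ hv (hle ⟨e, he, rfl⟩))
        have hmem : g * u ∈ RG Fr := mul_mem hg (GJ_anti (Nat.zero_le i) hu)
        refine ⟨g * u, hmem, fun k hkK => ⟨fun h => ?_, fun h => ?_⟩⟩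
        · rcases Nat.lt_or_ge i k with h' | h'
          · have e1 : k = i + 1 := le_antisymm h h'
            subst e1
            have e2 : k₀ = i + 1 := le_antisymm (hmin _ ⟨hkK, le_rfl⟩) hik₀
            subst e2
            refine Submodule.eq_of_le_of_finrank_eq hle' ?_
            rw [finrank_map_EE hin, hdim _ hkK]
          · rw [hmap k h', (hk k hkK).1 h']
        · exact hle'.trans (hmono k₀ hk₀ k hkK (hmin k ⟨hkK, h⟩))
      · push Not at hex
        refine ⟨g, hg, fun k hkK => ⟨fun h => (hk k hkK).1 (Nat.lt_succ_iff.1 (hex k hkK)), fun h => ?_⟩⟩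
        exact absurd (hex k hkK) (not_lt.2 h)

/-- **Transitivity on totally singular flags of type `K`.** -/
theorem Sing.flag_trans [FiniteDimensional F V] (K : Set ℕ) (hsw : (∃ p0 : Fr.Adm, p0.c ≠ 0) ∨ ∀ k ∈ K, k < n)
    (hK : ∀ k ∈ K, k ≤ n) (x : ℕ → Submodule F V) (hdim : ∀ k ∈ K, Module.finrank F (x k) = k)
    (hmono : ∀ k ∈ K, ∀ l ∈ K, k ≤ l → x k ≤ x l) (hTS : ∀ k ∈ K, Sg.TS (x k)) :
    ∃ g ∈ RG Fr, ∀ k ∈ K, (EE Fr k).map (g : V →ₗ[F] V) = x k := by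
  obtain ⟨g, hg, h⟩ := Sg.flag_key K hK x hdim hmono hTS n (by
    intro l hl
    rcases hsw with h | h
    · exact Or.inl h
    · by_cases h' : l + 1 < n
      · exact Or.inr (Or.inr h')
      · exact Or.inr (Or.inl fun k hk => by have := h k hk; omega))
  exact ⟨g, hg, fun k hk => (h k hk).1 (hK k hk)⟩

/-! ### Type `D`: the two families of maximal totally singular subspaces -/

omit Sg in
/-- the other standard maximal totally singular subspace -/
def EF (Fr : Frame H (Fin n)) (hn : 0 < n) : Submodule F V :=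
  EE Fr (n - 1) ⊔ Submodule.span F {Fr.b (⟨n - 1, Nat.sub_lt hn Nat.one_pos⟩, false)}

/-- **Transitivity on totally singular flags, type `D`**. -/
theorem Sing.flag_trans_D [FiniteDimensional F V] (hn : 0 < n) (hadm : ∀ w c, Fr.ok w c → w = 0 ∧ c = 0) (K : Set ℕ)
    (hK : ∀ k ∈ K, k ≤ n) (x : ℕ → Submodule F V) (hdim : ∀ k ∈ K, Module.finrank F (x k) = k)
    (hmono : ∀ k ∈ K, ∀ l ∈ K, k ≤ l → x k ≤ x l) (hTS : ∀ k ∈ K, Sg.TS (x k)) :
    ∃ g ∈ RG Fr, (∀ k ∈ K, k < n → (EE Fr k).map (g : V →ₗ[F] V) = x k) ∧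
      (n ∈ K → (EE Fr n).map (g : V →ₗ[F] V) = x n ∨ (EF Fr hn).map (g : V →ₗ[F] V) = x n) := by
  have hn1 : n - 1 < n := Nat.sub_lt hn Nat.one_pos
  obtain ⟨g, hg, h⟩ := Sg.flag_key K hK x hdim hmono hTS (n - 1) (fun l hl => Or.inr (Or.inr (by omega)))
  refine ⟨g, hg, fun k hk hkn => (h k hk).1 (by omega), fun hnK => ?_⟩
  have hle := (h n hnK).2 hn1.le
  obtain ⟨v, hv, hv'⟩ : ∃ v ∈ x n, v ∉ (EE Fr (n - 1)).map (g : V →ₗ[F] V) := by
    by_contra hcon
    push Not at hcon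
    have h1 : x n ≤ (EE Fr (n - 1)).map (g : V →ₗ[F] V) := hcon
    have h2 := Submodule.finrank_mono h1
    rw [hdim n hnK, finrank_map_EE hn1.le] at h2
    omega
  have hgv : g (g⁻¹ v) = v := g.apply_symm_apply v
  have h1 : g⁻¹ v ∉ EE Fr (n - 1) := by
    intro h
    exact hv' ⟨_, h, hgv⟩
  have h2 : Sg.S (g⁻¹ v) := (Sg.iff_of_mem (inv_mem hg) v).2 ((hTS n hnK).1 v hv)
  have h3 : ∀ w ∈ EE Fr (n - 1), H.h (g⁻¹ v) w = 0 := by
    intro w hw
    rw [← iso_of_mem hg (g⁻¹ v) w, hgv]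
    exact (hTS n hnK).2 v hv _ (hle ⟨w, hw, rfl⟩)
  obtain ⟨u, huE, hne, hS', horth⟩ := Sg.exists_proj hn1 h1 h2 h3
  obtain ⟨L, hL⟩ : ∃ L : Fin n, L = ⟨n - 1, hn1⟩ := ⟨_, rfl⟩
  have hLv : (L : ℕ) = n - 1 := by rw [hL]
  obtain ⟨z, hz⟩ : ∃ z, z = g⁻¹ v + u := ⟨_, rfl⟩
  rw [← hz] at hne hS' horth
  -- `z` lies in the last hyperbolic plane
  have hz2 : z = kap (Fr := Fr) z (L, true) • Fr.b (L, true) + kap (Fr := Fr) z (L, false) • Fr.b (L, false) := by
    have h4 : z - (kap (Fr := Fr) z (L, true) • Fr.b (L, true) + kap (Fr := Fr) z (L, false) • Fr.b (L, false)) ∈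
        Fr.V0 := by
      apply Sg.V0
      rintro ⟨l, s⟩
      rw [H.sub_left, H.add_left, H.smul_left, H.smul_left]
      rcases lt_or_ge (l : ℕ) (n - 1) with hl | hl
      · have hlL : L ≠ l := by
          intro e
          rw [← e, hLv] at hl
          exact lt_irrefl _ hl
        rw [horth (l, s) hl, Fr.hb_of_ne (x := (L, true)) (y := (l, s)) hlL,
          Fr.hb_of_ne (x := (L, false)) (y := (l, s)) hlL]
        simp
      · have hlL : l = L := Fin.ext (by have := l.2; omega)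
        rw [← hlL]
        have e1 : ((l, true) : Fin n × Bool) = neg (l, false) := rfl
        have e2 : ((l, false) : Fin n × Bool) = neg (l, true) := rfl
        cases s
        · rw [Fr.hb_self (l, false), mul_zero, add_zero]
          have h5 : H.h (Fr.b (l, true)) (Fr.b (l, false)) = Fr.η (neg (l, true)) := Fr.hb_self_neg (l, true)
          rw [h5, kap, mul_assoc, inv_mul_cancel₀ (Fr.η_ne _), mul_one, ← e2, sub_self]
        · rw [Fr.hb_self (l, true), mul_zero, zero_add]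
          have h5 : H.h (Fr.b (l, false)) (Fr.b (l, true)) = Fr.η (neg (l, false)) := Fr.hb_self_neg (l, false)
          rw [h5, kap, mul_assoc, inv_mul_cancel₀ (Fr.η_ne _), mul_one, ← e1, sub_self]
    obtain ⟨c, hc⟩ := Sg.ok _ h4
    exact sub_eq_zero.1 (hadm _ _ hc).1
  -- `z` is a multiple of one of the two vectors
  have hz3 : ∃ (s : Bool) (c : F), c ≠ 0 ∧ z = c • Fr.b (L, s) := by
    obtain ⟨α, hα⟩ : ∃ α, α = kap (Fr := Fr) z (L, true) := ⟨_, rfl⟩
    obtain ⟨β, hβ'⟩ : ∃ β, β = kap (Fr := Fr) z (L, false) := ⟨_, rfl⟩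
    rw [← hα, ← hβ'] at hz2
    by_cases hβ : β = 0
    · rw [hβ, zero_smul, add_zero] at hz2
      refine ⟨true, _, ?_, hz2⟩
      intro h
      rw [h, zero_smul] at hz2
      exact hne hz2
    · refine ⟨false, _, hβ, ?_⟩
      have h5 : Sg.S (Fr.b (neg (L, true)) + (β⁻¹ * α) • Fr.b (L, true)) := by
        have h6 := Sg.smul β⁻¹ hS'
        rw [hz2, smul_add, smul_smul, smul_smul, inv_mul_cancel₀ hβ, one_smul, add_comm] at h6
        exact h6
      have h6 := (hadm _ _ (Sg.tr _ _ h5)).2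
      have h7 : α = 0 := by
        rcases mul_eq_zero.1 h6 with h | h
        · rcases mul_eq_zero.1 h with h | h
          · exact absurd h (inv_ne_zero hβ)
          · exact h
        · exact absurd h (inv_ne_zero (Fr.η_ne _))
      rw [h7, zero_smul, zero_add] at hz2
      exact hz2
  obtain ⟨s, c, hc, hzc⟩ := hz3
  have hgz : g (Fr.b (L, s)) ∈ x n := by
    have h5 : g z ∈ x n := by
      rw [hz, map_add, hgv]
      exact Submodule.add_mem _ hv (hle ⟨u, huE, rfl⟩)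
    rw [hzc, map_smul] at h5
    exact (Submodule.smul_mem_iff _ hc).1 h5
  have hle' : ∀ s', s' = s →
      (EE Fr (n - 1) ⊔ Submodule.span F {Fr.b (L, s')}).map (g : V →ₗ[F] V) ≤ x n := by
    rintro _ rfl
    rw [Submodule.map_sup]
    refine sup_le hle ?_
    rw [Submodule.map_span, Submodule.span_le]
    rintro _ ⟨_, rfl, rfl⟩
    exact hgz
  have hfin : ∀ s', n ≤ Module.finrank F ↥(EE Fr (n - 1) ⊔ Submodule.span F {Fr.b (L, s')}) := by
    intro s'
    have hnot : Fr.b (L, s') ∉ EE Fr (n - 1) := by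
      intro hm
      have h5 : H.h (Fr.b (neg (L, s'))) (Fr.b (L, s')) = 0 := by
        refine h_EE ?_ hm
        intro l hl
        refine Fr.hb_of_ne (x := neg (L, s')) (y := (l, true)) ?_
        intro e
        have e' : L = l := e
        rw [← e', hLv] at hl
        exact lt_irrefl _ hl
      rw [Fr.hb_neg_self] at h5
      exact Fr.η_ne _ h5
    have hlt : EE Fr (n - 1) < EE Fr (n - 1) ⊔ Submodule.span F {Fr.b (L, s')} := by
      refine lt_of_le_of_ne le_sup_left fun e => hnot ?_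
      rw [e]
      exact Submodule.mem_sup_right (Submodule.subset_span rfl)
    have h6 := Submodule.finrank_lt_finrank_of_lt hlt
    rw [finrank_EE hn1.le] at h6
    omega
  have heq : (EE Fr (n - 1) ⊔ Submodule.span F {Fr.b (L, s)}).map (g : V →ₗ[F] V) = x n := by
    refine Submodule.eq_of_le_of_finrank_le (hle' s rfl) ?_
    rw [LinearEquiv.finrank_map_eq g, hdim n hnK]
    exact hfin s
  cases s with
  | true =>
    left
    have e : EE Fr n = EE Fr (n - 1) ⊔ Submodule.span F {Fr.b (L, true)} := by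
      have h7 := EE_succ (Fr := Fr) hn1
      rw [Nat.sub_add_cancel hn] at h7
      rw [h7, hL]
    rw [e]
    exact heq
  | false =>
    right
    rw [EF, ← hL]
    exact heq

end Cfsg.Agent.H749.PF
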